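import Mathlib
import Cfsg.Statements.S1404
import Cfsg.Statements.S1405
import Cfsg.Statements.S1407
import Cfsg.Statements.S1444
import Cfsg.Agent.S1450
import Cfsg.Agent.S1459
import Cfsg.Agent.Lib.Helper63.PLength
import Cfsg.Agent.Lib.Helper35.BG.Basic
import Cfsg.Agent.Lib.Helper67.BG.Basics
import Cfsg.Agent.Lib.Helper78.BG.S1405Aux

/-!
Bender–Glauberman Theorem 10.6 (row 1410, helper53): every proper subgroup of a minimal simple
group of odd order has `p`-length at most one.  Conditional core: the earlier results BG 10.1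
(row 1404), BG 10.2 (row 1405), BG 10.4 (row 1407) and BG 3.6 (row 1444) are hypotheses.
-/

set_option autoImplicit false

namespace Cfsg.Agent.Lib.Helper53.BG

open Cfsg Cfsg.Agent.Lib.Helper63
open scoped commutatorElement

/-- `p`-length one from `O_{p',p}(X)` having index prime to `p`. -/
theorem plengthLE_one_of_index_pPrimePCore {X : Type*} [Group X] [Finite X] {p : ℕ}
    [Fact p.Prime] (h : ((pPrimePCore p X).index).Coprime p) : PLengthLE p 1 X := by
  haveI hn1 : (pPrimeCore p X).Normal := inferInstance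
  haveI hn2 : (pPrimePCore p X).Normal := by
    unfold pPrimePCore
    exact Subgroup.Normal.comap inferInstance _
  let W : ℕ → Subgroup X := fun n =>
    if n = 0 then ⊥ else if n = 1 then pPrimeCore p X else if n = 2 then pPrimePCore p X else ⊤
  have hW0 : W 0 = ⊥ := by simp [W]
  have hW1 : W 1 = pPrimeCore p X := by simp [W]
  have hW2 : W 2 = pPrimePCore p X := by simp [W]
  have hW3 : ∀ n, 3 ≤ n → W n = ⊤ := by
    intro n hn
    have h0 : n ≠ 0 := by omega
    have h1 : n ≠ 1 := by omega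
    have h2 : n ≠ 2 := by omega
    simp [W, h0, h1, h2]
  have hs : IsPSeries p W :=
    { zero := hW0
      normal := by
        intro n
        rcases n with _ | _ | _ | n
        · rw [hW0]; infer_instance
        · rw [hW1]; infer_instance
        · rw [hW2]; infer_instance
        · rw [hW3 _ (by omega)]; infer_instance
      even := by
        intro n hn x hx
        rcases n with _ | _ | _ | n
        · rw [hW1] at hx
          refine ⟨orderOf x, ?_, ?_⟩
          · have h1 : orderOf x ∣ Nat.card (pPrimeCore p X) := by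
              have := orderOf_dvd_natCard (⟨x, hx⟩ : pPrimeCore p X)
              rwa [Subgroup.orderOf_mk] at this
            exact Nat.Coprime.coprime_dvd_left h1 (card_pPrimeCore_coprime' p X)
          · rw [pow_orderOf_eq_one, hW0]; exact Subgroup.one_mem _
        · exact absurd hn (by decide)
        · refine ⟨(pPrimePCore p X).index, h, ?_⟩
          rw [hW2]
          exact Subgroup.pow_index_mem _ x
        · exact ⟨1, Nat.coprime_one_left p, by rw [hW3 _ (by omega)]; trivial⟩
      odd := by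
        intro n hn x hx
        rcases n with _ | _ | _ | n
        · exact absurd (by decide : Even 0) hn
        · rw [hW2] at hx
          rw [hW1]
          have hx' : QuotientGroup.mk' (pPrimeCore p X) x ∈ pCore p (X ⧸ pPrimeCore p X) := hx
          obtain ⟨k, hk⟩ := (pCore_isPGroup' p (X ⧸ pPrimeCore p X)) ⟨_, hx'⟩
          refine ⟨k, ?_⟩
          have hk' : (QuotientGroup.mk' (pPrimeCore p X) x) ^ p ^ k = 1 := by
            simpa using congrArg Subtype.val hk
          rw [← map_pow, QuotientGroup.mk'_apply, QuotientGroup.eq_one_iff] at hk'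
          exact hk'
        · exact absurd (by decide : Even (0 + 1 + 1)) hn
        · exact ⟨0, by rw [hW3 _ (by omega)]; trivial⟩ }
  apply plengthLE_of_series hs
  exact hW3 _ (by norm_num)

/-- A normal Hall subgroup has a complement containing a given element of prime order `r`
not dividing its order. -/
theorem exists_complement_mem {X : Type*} [Group X] [Finite X] (N : Subgroup X) [N.Normal]
    (hcop : (Nat.card N).Coprime N.index) {r : ℕ} [Fact r.Prime] (hr : ¬ r ∣ Nat.card N)
    (y : X) (hy : orderOf y = r) : ∃ E : Subgroup X, Subgroup.IsComplement' N E ∧ y ∈ E := by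
  obtain ⟨K, hK⟩ := Subgroup.exists_right_complement'_of_coprime hcop
  have hKcard : Nat.card K = N.index := hK.symm.index_eq_card.symm
  have hmul : Nat.card N * Nat.card K = Nat.card X := by
    rw [hKcard]; exact Subgroup.card_mul_index N
  obtain ⟨S⟩ : Nonempty (Sylow r K) := inferInstance
  have hScard : Nat.card ((S : Subgroup K).map K.subtype) = r ^ (Nat.card X).factorization r := by
    rw [Subgroup.card_map_of_injective K.subtype_injective, S.card_eq_multiplicity, ← hmul,
      Nat.factorization_mul Nat.card_pos.ne' Nat.card_pos.ne']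
    simp [Nat.factorization_eq_zero_of_not_dvd hr]
  obtain ⟨T, hT⟩ : ∃ T : Sylow r X, (T : Subgroup X) = (S : Subgroup K).map K.subtype :=
    ⟨Sylow.ofCard _ hScard, Sylow.coe_ofCard _ hScard⟩
  have hyp : IsPGroup r (Subgroup.zpowers y) := by
    apply IsPGroup.of_card (n := 1)
    rw [Nat.card_zpowers, hy, pow_one]
  obtain ⟨T', hT'⟩ := hyp.exists_le_sylow
  obtain ⟨g, hg⟩ := MulAction.exists_smul_eq X T T'
  refine ⟨K.map (MulAut.conj g).toMonoidHom, ?_, ?_⟩
  · apply Subgroup.isComplement'_of_coprime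
    · rw [Subgroup.card_map_of_injective (f := (MulAut.conj g).toMonoidHom) (MulAut.conj g).injective]
      exact hmul
    · rw [Subgroup.card_map_of_injective (f := (MulAut.conj g).toMonoidHom) (MulAut.conj g).injective,
        hKcard]
      exact hcop
  · have h1 : y ∈ (T' : Subgroup X) := hT' (Subgroup.mem_zpowers y)
    rw [← hg, Sylow.coe_subgroup_smul, Subgroup.mem_smul_pointwise_iff_exists] at h1
    obtain ⟨t, ht, rfl⟩ := h1
    rw [hT] at ht
    obtain ⟨k, -, rfl⟩ := ht
    exact ⟨(k : X), k.2, rfl⟩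

/-- BG 10.6 for a maximal subgroup `M`. -/
theorem s1410_coatom {G : Type*} [Group G] [Finite G] (hG : Cfsg.IsMinSimpleOddOrder G)
    (h1404 : type_of% (@Cfsg.CfsgFrozen.S1404 G _ _ hG))
    (h1405 : type_of% (@Cfsg.CfsgFrozen.S1405 G _ _ hG))
    (h1407 : type_of% (@Cfsg.CfsgFrozen.S1407 G _ _ hG))
    (M : Subgroup G) (hM : IsCoatom M) [Group.IsSolvable M]
    (h1444 : type_of% (@Cfsg.CfsgFrozen.S1444 M _ _ _))
    (p : ℕ) [Fact p.Prime] : PLengthLE p 1 M := by
  classical
  have hpp : p.Prime := Fact.out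
  have hodd : Odd (Nat.card M) := Cfsg.Agent.Lib.Helper35.BG.odd_card_subgroup hG M
  by_cases hpM : p ∣ Nat.card M
  swap
  · exact plengthLE_mono (plengthLE_zero_iff.2 ((Nat.Prime.coprime_iff_not_dvd hpp).2 hpM).symm)
      (by norm_num)
  by_cases hr : PRankLE p 2 M
  · exact plengthLE_one_of_index_pPrimePCore (Cfsg.Agent.S1450.result hodd p hpM hr).2.2.2.2.2
  -- now `p ∈ α(M)`
  have hpα : p ∈ alpha M := ⟨hpp, hr⟩
  obtain ⟨hHall, -, hασ, -, -⟩ := h1405 M hM
  obtain ⟨Hα, hHαdef⟩ : ∃ N : Subgroup M, N = piCore (alpha M) M := ⟨_, rfl⟩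
  haveI hHαn : Hα.Normal := hHαdef ▸ inferInstance
  have hαcore : alphaCore M = Hα.map M.subtype := by rw [hHαdef]; rfl
  have hcardα : Nat.card (alphaCore M) = Nat.card Hα := by
    rw [hαcore, Subgroup.card_map_of_injective M.subtype_injective]
  have hrel : (alphaCore M).relIndex M = Hα.index := by
    rw [hαcore]
    unfold Subgroup.relIndex Subgroup.subgroupOf
    rw [Subgroup.comap_map_eq_self_of_injective M.subtype_injective]
  have hπ : ∀ q : ℕ, q.Prime → q ∣ Nat.card Hα → q ∈ alpha M := by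
    intro q hq hd
    exact hHall.2.1 q hq (hcardα ▸ hd)
  have hπσ : ∀ q : ℕ, q.Prime → q ∣ Nat.card Hα → q ∈ sigma M := by
    intro q hq hd
    apply Cfsg.Agent.Lib.Helper67.BG.sigmaCore_isPi M q hq
    exact (hcardα ▸ hd : q ∣ Nat.card (alphaCore M)).trans (Subgroup.card_dvd_of_le hασ)
  have hidx : ∀ q : ℕ, q.Prime → q ∈ alpha M → ¬ q ∣ Hα.index := by
    intro q hq hqα
    rw [← hrel]
    exact hHall.2.2 q hq hqα
  have hcop : (Nat.card Hα).Coprime Hα.index := by
    apply Nat.coprime_of_dvd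
    intro q hq hd1 hd2
    exact hidx q hq (hπ q hq hd1) hd2
  have hpidx : ¬ p ∣ Hα.index := hidx p hpp hpα
  have hpHα : p ∣ Nat.card Hα := by
    have h1 := Subgroup.card_mul_index Hα
    rw [← h1] at hpM
    exact ((Nat.Prime.dvd_mul hpp).1 hpM).resolve_right hpidx
  have hHαne : alphaCore M ≠ ⊥ := by
    intro h
    have h1 : Nat.card (alphaCore M) = 1 := by rw [h]; exact Subgroup.card_bot
    rw [hcardα] at h1
    rw [h1] at hpHα
    exact hpp.one_lt.ne' (Nat.dvd_one.1 hpHα)
  -- Sylow subgroups for the primes of `σ(M)` lie in `M'`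
  have hperf : commutator G = ⊤ :=
    Cfsg.Agent.Lib.Helper78.BG.commutator_eq_top_of_simple hG.2.1 hG.2.2.1
  have hσ : ∀ q : ℕ, q ∈ sigma M → ¬ q ∣ (commutator M).index := by
    intro q hq
    obtain ⟨hqp, hqM, Q, hQN⟩ := hq
    haveI : Fact q.Prime := ⟨hqp⟩
    have h1 : (Q : Subgroup M).map M.subtype ≤ ⁅M, M⁆ :=
      Cfsg.Agent.Lib.Helper78.BG.sylow_le_commutator_of_control hperf M Q hQN
        (fun X hXp hX1 hXM g hg => (h1404 M hM q ⟨hqp, hqM, Q, hQN⟩ X hXp hX1 hXM).1 g hg)
    have h2 : (Q : Subgroup M) ≤ commutator M := by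
      rw [← Subgroup.map_subtype_commutator] at h1
      exact (Subgroup.map_le_map_iff_of_injective M.subtype_injective).1 h1
    intro hd
    exact Q.not_dvd_index (hd.trans (Subgroup.index_dvd_of_le h2))
  have hHαcomm : Hα ≤ commutator M := by
    intro x hx
    by_contra hxc
    have h1 : (QuotientGroup.mk' (commutator M) x) ≠ 1 := by
      rwa [Ne, QuotientGroup.mk'_apply, QuotientGroup.eq_one_iff]
    have h2 : orderOf (QuotientGroup.mk' (commutator M) x) ≠ 1 := by
      rwa [Ne, orderOf_eq_one_iff]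
    obtain ⟨q, hq, hqd⟩ := Nat.exists_prime_and_dvd h2
    have h3 : orderOf (QuotientGroup.mk' (commutator M) x) ∣ orderOf x := orderOf_map_dvd _ x
    have h4 : orderOf x ∣ Nat.card Hα := by
      have := orderOf_dvd_natCard (⟨x, hx⟩ : Hα)
      rwa [Subgroup.orderOf_mk] at this
    have h5 : q ∈ sigma M := hπσ q hq (hqd.trans (h3.trans h4))
    have h6 : orderOf (QuotientGroup.mk' (commutator M) x) ∣ (commutator M).index := by
      rw [Subgroup.index_eq_card]
      exact orderOf_dvd_natCard _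
    exact hσ q h5 (hqd.trans h6)
  -- a prime `r ∉ σ(M)` dividing `|M : M'|`
  haveI : Nontrivial M := by
    rw [← Finite.one_lt_card_iff_nontrivial]
    exact lt_of_lt_of_le hpp.one_lt (Nat.le_of_dvd Nat.card_pos hpM)
  have hlt : commutator M < ⊤ := IsSolvable.commutator_lt_top_of_nontrivial M
  have hidx1 : (commutator M).index ≠ 1 := by
    rw [Ne, Subgroup.index_eq_one]
    exact hlt.ne
  obtain ⟨r, hr', hrd⟩ := Nat.exists_prime_and_dvd hidx1
  haveI : Fact r.Prime := ⟨hr'⟩
  have hrσ : r ∉ sigma M := fun h => hσ r h hrd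
  have hrM : r ∣ Nat.card M := hrd.trans (Subgroup.index_dvd_card _)
  obtain ⟨x, hxmem, hxord, hZ, -⟩ := h1407 M hM hHαne r hrM hrσ default
  obtain ⟨y₀, -, rfl⟩ := hxmem
  have hy₀ : orderOf y₀ = r := by
    rw [← hxord]
    exact (Subgroup.orderOf_coe y₀).symm
  have hrHα : ¬ r ∣ Nat.card Hα := fun h => hrσ (hπσ r hr' h)
  obtain ⟨E, hE, hyE⟩ := exists_complement_mem Hα hcop hrHα y₀ hy₀
  obtain ⟨R₀, hR₀⟩ : ∃ R₀ : Subgroup M, R₀ = Subgroup.zpowers y₀ := ⟨_, rfl⟩
  have hR₀E : R₀ ≤ E := by
    rw [hR₀, Subgroup.zpowers_le]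
    exact hyE
  have hR₀p : (Nat.card R₀).Prime := by
    rw [hR₀, Nat.card_zpowers, hy₀]
    exact hr'
  have hZ' : IsZGroup ↥(Hα ⊓ Subgroup.centralizer (R₀ : Set M)) := by
    haveI := hZ
    let f : ↥(Hα ⊓ Subgroup.centralizer (R₀ : Set M)) →*
        ↥(alphaCore M ⊓ Subgroup.centralizer ({M.subtype y₀} : Set G)) :=
      (M.subtype.comp (Subgroup.subtype _)).codRestrict _ (by
        intro z
        obtain ⟨hz1, hz2⟩ := Subgroup.mem_inf.1 z.2
        refine Subgroup.mem_inf.2 ⟨?_, ?_⟩
        · rw [hαcore]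
          exact Subgroup.mem_map_of_mem _ hz1
        · rw [Subgroup.mem_centralizer_iff]
          intro w hw
          rw [Set.mem_singleton_iff] at hw
          subst hw
          have h1 := hz2 y₀ (by rw [hR₀]; exact Subgroup.mem_zpowers y₀)
          exact congrArg Subtype.val h1)
    refine IsZGroup.of_injective (f := f) ?_
    intro a b hab
    have h1 := congrArg Subtype.val hab
    exact Subtype.ext (Subtype.ext h1)
  have hlen : PLengthLE p 1 ↥⁅Hα, E⁆ := h1444 hodd Hα E R₀ hcop hE hR₀E hR₀p hZ' p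
  have hEq : Hα = ⁅Hα, E⁆ :=
    ((Cfsg.Agent.S1459.result (G := M)).1 Hα E hHαn hcop hE hHαcomm).1
  have hlenα : PLengthLE p 1 Hα := plengthLE_of_mulEquiv (MulEquiv.subgroupCongr hEq.symm) hlen
  have hquot : PLengthLE p 0 (M ⧸ Hα) := by
    rw [plengthLE_zero_iff, ← Subgroup.index_eq_card]
    exact ((Nat.Prime.coprime_iff_not_dvd hpp).2 hpidx).symm
  exact plengthLE_of_normal Hα hlenα hquot

/-- **BG Theorem 10.6** (row 1410), conditional on rows 1404, 1405, 1407 (for `G`) and 1444
(for the maximal subgroups of `G`). -/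
theorem s1410_core {G : Type*} [Group G] [Finite G] (hG : Cfsg.IsMinSimpleOddOrder G)
    (h1404 : type_of% (@Cfsg.CfsgFrozen.S1404 G _ _ hG))
    (h1405 : type_of% (@Cfsg.CfsgFrozen.S1405 G _ _ hG))
    (h1407 : type_of% (@Cfsg.CfsgFrozen.S1407 G _ _ hG))
    (h1444 : ∀ (M : Subgroup G) [Group.IsSolvable M], type_of% (@Cfsg.CfsgFrozen.S1444 M _ _ _))
    (p : ℕ) [Fact p.Prime] (H : Subgroup G) (hH : H ≠ ⊤) : Cfsg.PLengthLE p 1 H := by
  obtain ⟨M, hM, hHM⟩ := Cfsg.Agent.Lib.Helper35.BG.exists_coatom_ge hH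
  haveI : Group.IsSolvable M := hG.2.2.2 M hM.1
  have hMp : PLengthLE p 1 M := s1410_coatom hG h1404 h1405 h1407 M hM (h1444 M) p
  have h1 : PLengthLE p 1 (H.subgroupOf M) := plengthLE_subgroup _ hMp
  exact plengthLE_of_mulEquiv (Subgroup.subgroupOfEquivOfLe hHM) h1

end Cfsg.Agent.Lib.Helper53.BG
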